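import Cfsg.Agent.Lib.UW.Def
import Mathlib.Analysis.Fourier.FiniteAbelian.PontryaginDuality

/-! # Existence of a Heisenberg basis in any characteristic -/

set_option autoImplicit false
set_option linter.unusedSectionVars false

namespace Cfsg.Lib.UW

open Module Cfsg.Lib.Unitary LinearMap Cfsg.Lib.US7

theorem heis_tp {V W : Type*} [AddCommGroup V] [AddCommGroup W] [Module ℂ W] [FiniteDimensional ℂ W]
    (c : V → V → ℂ) (h : V → End ℂ W) (h0 : h 0 = 1) (hm : ∀ u v, h u * h v = c u v • h (u + v)) :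
    ∃ k : V → End ℂ (Fin (finrank ℂ W) → ℂ), k 0 = 1 ∧ ∀ u v, k u * k v = c u v • k (u + v) :=
  ⟨fun v => (finBasis ℂ W).equivFun.conjAlgEquiv ℂ (h v), by simp only [h0, map_one], fun u v => by
    simp only [← map_mul, hm, map_smul]⟩

/-- `L u f x = c u (x - u) * f (x - u)` on `V → ℂ` satisfies `L 0 = 1`, `L u * L v = c u v • L (u + v)`
(`c 0 x = 1` since `c 0 x = c 0 x * c 0 x`); transport it to `Fin m → ℂ` (`LinearEquiv.ofFinrankEq`,
`conjAlgEquiv`).  Take such a pair `(m, h)`, `m ≠ 0`, with `m` minimal (`Nat.find`).  If `X` commutes with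
all `h v`, it has an eigenvalue `a` (`Module.End.exists_eigenvalue`); the eigenspace `E ≠ ⊥` is invariant,
the restrictions of the `h v` to `E` give another pair with `m' = finrank E`, so `E = ⊤`. -/
theorem exists_irr {V : Type*} [AddCommGroup V] [Fintype V] (c : V → V → ℂ) (c0 : ∀ u v, c u v ≠ 0)
    (c1 : ∀ u v w, c (u + v) w = c u w * c v w) (c2 : ∀ u v w, c u (v + w) = c u v * c u w) :
    ∃ (m : ℕ) (h : V → End ℂ (Fin m → ℂ)), m ≠ 0 ∧ h 0 = 1 ∧ (∀ u v, h u * h v = c u v • h (u + v)) ∧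
      ∀ X : End ℂ (Fin m → ℂ), (∀ v, X * h v = h v * X) → ∃ a : ℂ, X = a • 1 := by
  classical
  have z : ∀ x, c 0 x = 1 := fun x => mul_left_cancel₀ (c0 0 x) (by rw [← c1, add_zero, mul_one])
  have ex : ∃ m : ℕ, m ≠ 0 ∧ ∃ k : V → End ℂ (Fin m → ℂ), k 0 = 1 ∧ ∀ u v, k u * k v = c u v • k (u + v) :=
    ⟨_, finrank_pos.ne', heis_tp c (W := V → ℂ)
      (fun u => LinearMap.pi fun x => c u (x - u) • LinearMap.proj (x - u)) (by ext f x; simp [z]) fun u v => by
        refine LinearMap.ext fun f => funext fun x => ?_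
        have e : c u (x - u) = c u v * c u (x - (u + v)) := by rw [← c2]; congr 1; abel
        simp only [Module.End.mul_apply, pi_apply, LinearMap.smul_apply, proj_apply, smul_eq_mul, Pi.smul_apply, e, c1, sub_sub]
        ring⟩
  obtain ⟨m0, h, h0, hm⟩ := Nat.find_spec ex
  refine ⟨_, h, m0, h0, hm, fun X hX => ?_⟩
  haveI : Nonempty (Fin (Nat.find ex)) := ⟨⟨0, Nat.pos_of_ne_zero m0⟩⟩
  obtain ⟨a, ha⟩ := Module.End.exists_eigenvalue X
  have inv : ∀ v, ∀ x ∈ X.eigenspace a, h v x ∈ X.eigenspace a := fun v x hx => by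
    rw [Module.End.mem_eigenspace_iff] at hx ⊢
    rw [← Module.End.mul_apply, hX, Module.End.mul_apply, hx, map_smul]
  have := Nat.find_min' ex (m := finrank ℂ (X.eigenspace a)) ⟨fun e => Module.End.hasEigenvalue_iff.1 ha
    (Submodule.finrank_eq_zero.1 e), heis_tp c (fun v => (h v).restrict (inv v))
      (LinearMap.ext fun x => Subtype.ext (by simp [h0])) fun u v => LinearMap.ext fun x => Subtype.ext
        (congrArg (fun f : End ℂ _ => f x.1) (hm u v))⟩
  have t : X.eigenspace a = ⊤ := Submodule.eq_top_of_finrank_eq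
    (le_antisymm (Submodule.finrank_le _) (by simpa using this))
  exact ⟨a, LinearMap.ext fun x => Module.End.mem_eigenspace_iff.1 (t ▸ Submodule.mem_top)⟩

/-- `T X = ∑ v, h v * X * h (-v)` commutes with every `h u` (`h u * h v = γ • h (u + v)`,
`h (-v) * h (-u)` is the inverse; reindex), so `T X = f X • 1`; `T 1 = |V| • 1`.  Hence `|V|⁻¹ • T` is
an idempotent with range `ℂ • 1`, i.e. `T = f.smulRight 1` with `f` linear, `trace T = f 1 = |V|`; by
`US7.trace_lr` and `tr`, `trace T = ∑ v, trace (h v) * trace (h (-v)) = m ^ 2`. -/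
theorem dim_of_irr {V W : Type*} [AddCommGroup V] [Fintype V] [AddCommGroup W] [Module ℂ W]
    [FiniteDimensional ℂ W] [Nontrivial W] {h : V → End ℂ W} (zero : h 0 = 1)
    (mul : ∀ u v, ∃ c : ℂ, h u * h v = c • h (u + v)) (neg : ∀ v, h v * h (-v) = 1)
    (tr : ∀ v, v ≠ 0 → trace ℂ W (h v) = 0)
    (irr : ∀ X : End ℂ W, (∀ v, X * h v = h v * X) → ∃ a : ℂ, X = a • 1) :
    finrank ℂ W ^ 2 = Nat.card V := by
  let T : End ℂ (End ℂ W) := ∑ v, mulLeft ℂ (h v) * mulRight ℂ (h (-v))
  have hT : ∀ X, T X = ∑ v, h v * X * h (-v) := fun X => by simp [T, mul_assoc]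
  have m0 : (finrank ℂ W : ℂ) ≠ 0 := Nat.cast_ne_zero.2 finrank_pos.ne'
  have cm : ∀ X u, T X * h u = h u * T X := fun X u => by
    have e : h u * T X * h (-u) = T X := by
      rw [hT, Finset.mul_sum, Finset.sum_mul, ← Equiv.sum_comp (Equiv.addLeft u) fun v => h v * X * h (-v)]
      refine Finset.sum_congr rfl fun v _ => ?_
      obtain ⟨c, hc⟩ := mul u v
      obtain ⟨d, hd⟩ := mul (-v) (-u)
      rw [← neg_add_rev] at hd
      have k : (c * d) • (1 : End ℂ W) = (1 : ℂ) • 1 := by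
        rw [← neg (u + v), ← smul_mul_smul_comm, ← hc, ← hd, mul_assoc, ← mul_assoc (h v), neg, one_mul, neg, neg,
          one_smul]
      calc _ = h u * h v * X * (h (-v) * h (-u)) := by simp only [mul_assoc]
        _ = _ := by
          rw [hc, hd, smul_mul_assoc, smul_mul_smul_comm, smul_left_injective ℂ one_ne_zero k, one_smul]
          rfl
    have := neg (-u)
    rw [neg_neg] at this
    conv_lhs => rw [← e, mul_assoc, this, mul_one]
  have e : T = ((finrank ℂ W : ℂ)⁻¹ • (trace ℂ W ∘ₗ T)).smulRight 1 := LinearMap.ext fun X => by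
    obtain ⟨a, ha⟩ := irr _ (cm X)
    simp [ha, mul_comm a, ← mul_assoc, m0]
  have e1 := congrArg (trace ℂ _) e
  rw [trace_smulRight, LinearMap.smul_apply, comp_apply, hT, map_sum, Finset.sum_eq_single 0
    (fun v _ v0 => by rw [trace_lr, tr v v0, zero_mul]) (by simp), trace_lr] at e1
  simp only [neg_zero, zero, mul_one, neg, Finset.sum_const, Finset.card_univ, map_nsmul, trace_one] at e1
  rw [nsmul_eq_mul, smul_eq_mul] at e1
  rw [Nat.card_eq_fintype_card]
  refine Nat.cast_injective (R := ℂ) ?_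
  push_cast
  rw [sq, e1]
  field_simp

variable {F V : Type*} [Field F] [Fintype F] [AddCommGroup V] [Module F V] [Fintype V] {σ : F →+* F}
  {B : V →ₛₗ[σ] V →ₗ[F] F} {q : ℕ}

/-- Take `δ` with `σ δ ≠ δ` and `ε : AddChar F ℂ` with `ε (δ - σ δ) ≠ 1`
(`AddChar.exists_apply_ne_zero`), `κ x = ε (x - σ x)`, `h₀` from `exists_irr` with `c u v = ε (B u v)`,
`l x` a square root of `ε x` with `l 0 = 1`, `h v = l (B v v) • h₀ v`,
`γ x y z = l x * l y * ε z / l (x + y + z + σ z)`, `N = 2 * card F`.  `tr`: for `v ≠ 0` there is `u` with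
`κ (B u v) ≠ 1` and `trace (h v) = trace (h u * h v * h (-u)) = κ (B u v) * trace (h v)`. -/
theorem exists_wp (hσ : IsBar q σ) (hB : IsHerm σ B) :
    ∃ (κ : AddChar F ℂ) (m : ℕ) (h : V → End ℂ (Fin m → ℂ)), WP B κ h := by
  obtain ⟨δ, hδ⟩ : ∃ δ, δ - σ δ ≠ 0 := by
    by_contra! k
    exact hB.ne_id (RingHom.ext fun x => (sub_eq_zero.1 (k x)).symm)
  obtain ⟨ε, hε⟩ := AddChar.exists_apply_ne_zero.2 hδ
  have ep : ∀ x, ε x ^ Fintype.card F = 1 := fun x => by
    rw [← AddChar.map_nsmul_eq_pow, card_nsmul_eq_zero, AddChar.map_zero_eq_one]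
  have e0 : ∀ x, ε x ≠ 0 := fun x e => by simpa [e] using ep x
  obtain ⟨m, k, m0, k0, km, ki⟩ := exists_irr (fun u v => ε (B u v)) (fun _ _ => e0 _)
    (fun u v w => by rw [map_add, LinearMap.add_apply, AddChar.map_add_eq_mul])
    fun u v w => by rw [map_add, AddChar.map_add_eq_mul]
  have : ∀ x : F, ∃ y : ℂ, y * y = ε x ∧ (x = 0 → y = 1) := fun x => by
    by_cases x0 : x = 0
    · exact ⟨1, by simp [x0], fun _ => rfl⟩
    · obtain ⟨y, hy⟩ := IsAlgClosed.exists_eq_mul_self (ε x)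
      exact ⟨y, hy.symm, fun e => absurd e x0⟩
  choose l l2 l1 using this
  have l0 : ∀ x, l x ≠ 0 := fun x e => e0 x (by rw [← l2, e, zero_mul])
  have lp : ∀ x, l x ^ (2 * Fintype.card F) = 1 := fun x => by rw [pow_mul, sq, l2, ep]
  let κ : AddChar F ℂ := ε.compAddMonoidHom (AddMonoidHom.id F - (σ : F →+ F))
  have hκ : ∀ x, κ x = ε (x - σ x) := fun _ => rfl
  let h : V → End ℂ (Fin m → ℂ) := fun v => l (B v v) • k v
  have zero : h 0 = 1 := by simp [h, l1, k0]
  have mul : ∀ u v, h u * h v = (l (B u u) * l (B v v) * ε (B u v) /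
      l (B u u + B v v + B u v + σ (B u v))) • h (u + v) := fun u v => by
    have : B (u + v) (u + v) = B u u + B v v + B u v + σ (B u v) := by
      simp only [map_add, LinearMap.add_apply, hB.symm]; ring
    simp only [h]
    rw [smul_mul_smul_comm, km, smul_smul, smul_smul, this, div_mul_cancel₀ _ (l0 _)]
  have neg : ∀ v, h v * h (-v) = 1 := fun v => by
    simp only [h]
    rw [smul_mul_smul_comm, km, smul_smul, add_neg_cancel, k0]
    simp only [map_neg, LinearMap.neg_apply, neg_neg]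
    rw [l2, ← AddChar.map_add_eq_mul, add_neg_cancel, AddChar.map_zero_eq_one, one_smul]
  have conj : ∀ u v, h u * h v * h (-u) = κ (B u v) • h v := fun u v => by
    simp only [h]
    rw [smul_mul_smul_comm, smul_mul_smul_comm, km, smul_mul_assoc, km, smul_smul, smul_smul, smul_smul,
      add_neg_cancel_comm, hκ, hB.symm]
    congr 1
    simp only [map_neg, LinearMap.neg_apply, neg_neg, map_add, LinearMap.add_apply]
    rw [show B u v - B v u = B u u + B u v + -(B u u + B v u) by ring, AddChar.map_add_eq_mul,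
      AddChar.map_add_eq_mul, ← l2 (B u u)]
    ring
  have tr : ∀ v, v ≠ 0 → trace ℂ _ (h v) = 0 := fun v v0 => by
    obtain ⟨w, hw⟩ := hB.exists_eq_one v0
    have e := congrArg (trace ℂ _) (conj (σ δ • w) v)
    have n := neg (-(σ δ • w))
    rw [neg_neg] at n
    have b : B (σ δ • w) v = δ := by
      rw [map_smulₛₗ, LinearMap.smul_apply, ← hB.symm, hw, map_one, hB.invol, smul_eq_mul, mul_one]
    rw [trace_mul_cycle, n, one_mul, b, hκ, (trace ℂ _).map_smul (ε _), smul_eq_mul] at e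
    exact (mul_eq_zero.1 (show (ε (δ - σ δ) - 1) * trace ℂ _ (h v) = 0 by linear_combination -e)).resolve_left
      (sub_ne_zero.2 hε)
  haveI : Nonempty (Fin m) := ⟨⟨0, Nat.pos_of_ne_zero m0⟩⟩
  refine ⟨κ, m, h, fun e => hε (by rw [← hκ, e]; rfl), fun x e => by rw [hκ, e, sub_self, AddChar.map_zero_eq_one],
    zero, ⟨fun x y z => l x * l y * ε z / l (x + y + z + σ z), 2 * Fintype.card F, by simp, fun x y z => ?_,
      by simp [l1], mul⟩, neg, conj, tr, dim_of_irr zero (fun u v => ⟨_, mul u v⟩) neg tr fun X hX => ki X fun v => ?_⟩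
  · rw [div_pow, mul_pow, mul_pow, lp, lp, lp, pow_mul', ep]; simp
  · have := hX v
    simp only [h, mul_smul_comm, smul_mul_assoc] at this
    exact smul_right_injective _ (l0 _) this

end Cfsg.Lib.UW
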