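import Cfsg.Agent.Lib.UW.Def

/-! # Lifting a projective representation along two determinants -/

set_option autoImplicit false
set_option linter.unusedSectionVars false

namespace Cfsg.Lib.UW

open Module LinearMap

variable {W : Type*} [AddCommGroup W] [Module ℂ W] [FiniteDimensional ℂ W]

/-- `trace R = ∑ ζ, finrank (maxGenEigenspace ζ) • ζ` over the roots of `charpoly`
(`LinearMap.finrank_maxGenEigenspace_eq`, `Matrix.trace_eq_sum_roots_charpoly` or
`Module.End.trace_eq_sum_roots_charpoly`-like); the roots are eigenvalues, so `ζ ^ N = 1`.  If `p` divides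
all multiplicities, `trace R = p * a` with `a` integral; `R'` has `R' ^ N = 1` too, so `1 / p = a * trace R'`
is integral (`US7.isIntegral_trace`, `Char.nat_dvd_of_isIntegral_div`), absurd. -/
theorem exists_eig_cop {R R' : End ℂ W} {N p : ℕ} (N0 : N ≠ 0) (hR : R ^ N = 1) (hR' : R' ^ N = 1)
    (ht : trace ℂ W R * trace ℂ W R' = 1) (hp : p.Prime) :
    ∃ ζ : ℂ, ¬ p ∣ finrank ℂ (R.maxGenEigenspace ζ) := by
  classical
  by_contra! k
  have e : trace ℂ W R = p * ∑ ζ ∈ R.charpoly.roots.toFinset, (R.charpoly.roots.count ζ / p : ℕ) * ζ := by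
    rw [Module.End.trace_eq_sum_roots_charpoly_of_splits (IsAlgClosed.splits _), Finset.mul_sum,
      Finset.sum_multiset_count]
    refine Finset.sum_congr rfl fun ζ _ => ?_
    rw [← mul_assoc, ← Nat.cast_mul, Nat.mul_div_cancel' (by
      rw [Polynomial.count_roots, ← finrank_maxGenEigenspace_eq]; exact k ζ), nsmul_eq_mul]
  have i : IsIntegral ℤ (∑ ζ ∈ R.charpoly.roots.toFinset, (R.charpoly.roots.count ζ / p : ℕ) * ζ) :=
    IsIntegral.sum _ fun ζ hζ => (isIntegral_natCast _).mul (IsIntegral.of_pow (Nat.pos_of_ne_zero N0) (by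
      have := ((Module.End.hasEigenvalue_iff_isRoot_charpoly R ζ).2
        (Polynomial.isRoot_of_mem_roots (Multiset.mem_toFinset.1 hζ))).pow N
      obtain ⟨v, hv⟩ := this.exists_hasEigenvector
      have e := hv.apply_eq_smul
      rw [hR, Module.End.one_apply] at e
      rw [smul_left_injective ℂ hv.2 (e.symm.trans (one_smul ℂ v).symm)]
      exact isIntegral_one))
  refine hp.one_lt.ne' (Nat.dvd_one.1 (Char.nat_dvd_of_isIntegral_div hp.ne_zero ?_))
  have j := i.mul (US7.isIntegral_trace N0 hR')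
  rwa [(eq_div_iff (Nat.cast_ne_zero.2 hp.ne_zero)).2 (show _ * trace ℂ W R' * (p : ℂ) = (1 : ℕ) by
    rw [Nat.cast_one, ← ht, e]; ring)] at j

/-- `T = {(g, P) | P h v = h (g • v) P} ≤ U × (End W)ˣ`; `π = fst : T → U` is onto with kernel the scalars
(`uq`).  `d₁ = det P`, `d₂ = det (P|E)` are characters of `T` with `d₁ (s • 1) = s ^ finrank W`,
`d₂ (s • 1) = s ^ finrank E`; by Bezout `χ = d₁ ^ a * d₂ ^ b` (`a b : ℤ`) has `χ (s • 1) = s`.  So
`Φ x = (χ x)⁻¹ • x.2` is a homomorphism killing `ker π` and factors through `π`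
(`MonoidHom.liftOfRightInverse`, or define `ρ g = Φ (choose g)` and use `Φ x = Φ y` if `π x = π y`). -/
theorem exists_lift {U V : Type*} [Group U] [MulAction U V] (h : V → End ℂ W)
    (ex : ∀ g : U, ∃ P : (End ℂ W)ˣ, ∀ v, P.1 * h v = h (g • v) * P.1)
    (uq : ∀ X : End ℂ W, (∀ v, X * h v = h v * X) → ∃ a : ℂ, X = a • 1) (E : Submodule ℂ W)
    (inv : ∀ (g : U) (P : (End ℂ W)ˣ), (∀ v, P.1 * h v = h (g • v) * P.1) → ∀ x ∈ E, P.1 x ∈ E)
    (cop : Nat.Coprime (finrank ℂ E) (finrank ℂ W)) :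
    ∃ ρ : U →* End ℂ W, ∀ g v, ρ g * h v = h (g • v) * ρ g := by
  let T : Subgroup (U × (End ℂ W)ˣ) :=
    { carrier := {x | ∀ v, x.2.1 * h v = h (x.1 • v) * x.2.1}
      one_mem' := fun v => by simp
      mul_mem' := fun {x y} hx hy v => by
        simp only [Prod.snd_mul, Prod.fst_mul, Units.val_mul]
        rw [mul_assoc, hy, ← mul_assoc, hx, mul_smul, mul_assoc]
      inv_mem' := fun {x} hx v => by
        have := hx (x.1⁻¹ • v)
        rw [smul_inv_smul] at this
        simp only [Prod.snd_inv, Prod.fst_inv]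
        rw [Units.inv_mul_eq_iff_eq_mul, ← mul_assoc, this, Units.mul_inv_cancel_right] }
  let r₁ : T →* End ℂ W := (Units.coeHom _).comp ((MonoidHom.snd _ _).comp T.subtype)
  let r₂ : T →* End ℂ E :=
    { toFun := fun x => x.1.2.1.restrict (inv _ _ x.2), map_one' := rfl, map_mul' := fun _ _ => rfl }
  let d₁ : T →* ℂˣ := (LinearMap.det.comp r₁).toHomUnits
  let d₂ : T →* ℂˣ := (LinearMap.det.comp r₂).toHomUnits
  obtain ⟨a, b, hab⟩ := Nat.isCoprime_iff_coprime.2 cop
  let χ : T →* ℂˣ := d₂ ^ a * d₁ ^ b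
  let Φ : T →* End ℂ W :=
    { toFun := fun x => ((χ x)⁻¹ : ℂˣ) • r₁ x
      map_one' := by simp
      map_mul' := fun x y => by simp only [map_mul, mul_inv, smul_mul_smul_comm] }
  have k : ∀ x : T, x.1.1 = 1 → Φ x = 1 := fun x hx => by
    obtain ⟨s, hs⟩ := uq x.1.2.1 fun v => by simpa [hx] using x.2 v
    have e1 : (d₁ x : ℂ) = s ^ finrank ℂ W := by
      change LinearMap.det x.1.2.1 = _
      rw [hs, LinearMap.det_smul, map_one, mul_one]
    have e2 : (d₂ x : ℂ) = s ^ finrank ℂ E := by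
      change LinearMap.det (r₂ x) = _
      rw [show r₂ x = s • 1 from LinearMap.ext fun y => Subtype.ext (LinearMap.congr_fun hs y),
        LinearMap.det_smul, map_one, mul_one]
    rcases subsingleton_or_nontrivial W with r | r
    · exact Subsingleton.elim _ _
    have s0 : s ≠ 0 := fun e => (d₁ x).ne_zero (by rw [e1, e, zero_pow finrank_pos.ne'])
    have e3 : (χ x : ℂ) = s := by
      change ((d₂ x ^ a * d₁ x ^ b : ℂˣ) : ℂ) = s
      rw [Units.val_mul, Units.val_zpow_eq_zpow_val, Units.val_zpow_eq_zpow_val, e1, e2, ← zpow_natCast,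
        ← zpow_natCast, ← zpow_mul, ← zpow_mul, ← zpow_add₀ s0, mul_comm _ a, mul_comm _ b, hab, zpow_one]
    change ((χ x)⁻¹ : ℂˣ) • x.1.2.1 = 1
    rw [hs, Units.smul_def, Units.val_inv_eq_inv_val, e3, inv_smul_smul₀ s0]
  choose P hP using ex
  let t : U → T := fun g => ⟨(g, P g), hP g⟩
  refine ⟨{ toFun := fun g => Φ (t g), map_one' := k _ rfl, map_mul' := fun g g' => ?_ }, fun g v => ?_⟩
  · rw [← map_mul, ← mul_inv_cancel_left (t g * t g') (t (g * g')), map_mul Φ (t g * t g'),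
      k ((t g * t g')⁻¹ * t (g * g')) (inv_mul_cancel (g * g')), mul_one]
  · change (((χ (t g))⁻¹ : ℂˣ) • (P g).1) * h v = h (g • v) * (((χ (t g))⁻¹ : ℂˣ) • (P g).1)
    rw [smul_mul_assoc, hP, mul_smul_comm]

end Cfsg.Lib.UW
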