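import Cfsg.Agent.Lib.UW.WD
import Cfsg.Agent.Lib.UW.Heis
import Cfsg.Agent.Lib.UW.Lift

/-! # Existence of Weil data in any characteristic -/

set_option autoImplicit false
set_option linter.unusedSectionVars false

namespace Cfsg.Lib.UW

open Module Cfsg.Lib.Unitary LinearMap Cfsg.Lib.US7

variable {F V : Type*} [Field F] [Fintype F] [AddCommGroup V] [Module F V] [Fintype V] {σ : F →+* F}
  {B : V →ₛₗ[σ] V →ₗ[F] F} {κ : AddChar F ℂ} {W : Type*} [AddCommGroup W] [Module ℂ W]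
  [FiniteDimensional ℂ W] {h : V → End ℂ W} {q : ℕ}

namespace WP

variable (D : WP B κ h) (hB : IsHerm σ B)
include D hB

/-- `X` commutes with the basis `h` of `End W`, so it is central
(`LinearMap.exists_smul_id...`, `Module.End.mem_center_iff`-like lemmas; or `twirl`) -/
theorem scalar (X : End ℂ W) (hX : ∀ v, X * h v = h v * X) : ∃ a : ℂ, X = a • 1 := by
  obtain ⟨b, hb⟩ := D.basis hB
  obtain ⟨a, ha⟩ := (Algebra.IsCentral.mem_center_iff ℂ (x := X)).1 (Subalgebra.mem_center_iff.2 fun Y => by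
    rw [← b.sum_repr Y]
    simp only [hb, Finset.sum_mul, Finset.mul_sum, smul_mul_assoc, mul_smul_comm, hX])
  exact ⟨a, by rw [ha, Algebra.algebraMap_eq_smul_one]⟩

/-- the linear map `h v ↦ h (g v)` (`basis`, `Basis.equiv` with `g.toEquiv`) is an algebra automorphism of
`End W` because the cocycle `γ` is `g`-invariant; Skolem-Noether `AlgEquiv.eq_linearEquivConjAlgEquiv` -/
theorem exists_int (g : UG B) : ∃ P : (End ℂ W)ˣ, ∀ v, P.1 * h v = h (g.1 v) * P.1 := by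
  obtain ⟨b, hb⟩ := D.basis hB
  obtain ⟨γ, N, -, -, -, m⟩ := D.mul
  let L : End ℂ W ≃ₗ[ℂ] End ℂ W := b.equiv b g.1.toEquiv
  have hL : ∀ v, L (h v) = h (g.1 v) := fun v => by
    rw [← hb, ← hb]
    exact Basis.equiv_apply b v b _
  have hg : ∀ u v, B (g.1 u) (g.1 v) = B u v := g.2
  have hm : ∀ X Y, L (X * Y) = L X * L Y := fun X Y => by
    rw [← b.sum_repr X, ← b.sum_repr Y]
    simp only [hb, Finset.sum_mul, Finset.mul_sum, smul_mul_assoc, mul_smul_comm, map_sum, map_smul, m, hL,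
      hg, map_add]
  obtain ⟨T, hT⟩ := (AlgEquiv.ofLinearEquiv L (by rw [← D.zero, hL, map_zero]) hm).eq_linearEquivConjAlgEquiv
  refine ⟨LinearMap.GeneralLinearGroup.ofLinearEquiv T, fun v => ?_⟩
  have e : L (h v) = T.conjAlgEquiv ℂ (h v) := DFunLike.congr_fun hT (h v)
  rw [← hL, e]
  ext w
  simp

/-- Take a scalar `z = scl c ≠ 1`, `c ∈ Mu q F` (`c ^ (q+1) = 1`), `R₀` from `exists_int z`; `R₀ ^ (q+1)`
commutes with `h`, so is a scalar `a ≠ 0`; `R = b • R₀` with `b ^ (q+1) = a⁻¹`.  `fix_card'` gives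
`trace R * trace R⁻¹ = 1`.  For an intertwiner `P` of `g`, `R⁻¹ P R P⁻¹` commutes with `h` (`z` is central),
so `P R P⁻¹ = s • R`, and `s = 1` by traces; hence `P` preserves `E = R.maxGenEigenspace ζ` from
`exists_eig_cop` with `p = char F` (`Module.End.mapsTo_maxGenEigenspace_of_comm`).  `finrank W ^ 2 = |V|`
is a power of `p`, so `exists_lift` applies. -/
theorem exists_rho (hσ : IsBar q σ) : ∃ ρ : UG B →* End ℂ W, WQ B κ h ρ := by
  classical
  obtain ⟨c, hc, c1⟩ := hσ.exists_norm_one_ne_one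
  rw [hσ.norm_eq] at hc
  let z : UG B := ⟨scl q F V (rootsOfUnity.mkOfPowEq c hc), scl_mem_UG hσ B _⟩
  obtain ⟨R0, h0⟩ := D.exists_int hB z
  replace h0 : ∀ v, R0.1 * h v = h (c • v) * R0.1 := h0
  have hk : ∀ (k : ℕ) v, R0.1 ^ k * h v = h (c ^ k • v) * R0.1 ^ k := fun k => by
    induction k with
    | zero => simp
    | succ k ih =>
      intro v
      rw [pow_succ', mul_assoc, ih, ← mul_assoc, h0, smul_smul, mul_assoc, ← pow_succ' c]
  obtain ⟨a, ha⟩ := D.scalar hB (R0.1 ^ (q + 1)) fun v => by rw [hk, hc, one_smul]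
  have : Nontrivial W := Module.nontrivial_of_finrank_pos (R := ℂ)
    (Nat.pos_of_ne_zero fun e => D.dim_ne hB (by rw [e, Nat.cast_zero]))
  have a0 : a ≠ 0 := by
    rintro rfl
    exact (R0.isUnit.pow (q + 1)).ne_zero (by rw [ha, zero_smul])
  obtain ⟨b, hb⟩ := IsAlgClosed.exists_pow_nat_eq a⁻¹ q.succ_pos
  have b0 : b ≠ 0 := by
    rintro rfl
    exact inv_ne_zero a0 (by rw [← hb, zero_pow q.succ_ne_zero])
  let R : (End ℂ W)ˣ := ⟨b • R0.1, b⁻¹ • R0⁻¹.1, by simp [smul_smul, b0], by simp [smul_smul, b0]⟩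
  have hR : ∀ v, R.1 * h v = h (c • v) * R.1 := fun v => by
    change b • R0.1 * h v = h (c • v) * b • R0.1
    rw [smul_mul_assoc, mul_smul_comm, h0]
  have RN : R ^ (q + 1) = 1 := Units.ext (by
    change ((R ^ (q + 1) : (End ℂ W)ˣ) : End ℂ W) = 1
    rw [Units.val_pow_eq_pow_val]
    change (b • R0.1) ^ (q + 1) = 1
    rw [smul_pow, ha, smul_smul, show b ^ (q + 1) = a⁻¹ from hb, inv_mul_cancel₀ a0, one_smul])
  have ht : trace ℂ W R.1 * trace ℂ W R⁻¹.1 = 1 := by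
    rw [D.fix_card' hB (f := fun v => c • v) fun v => by rw [hR, Units.mul_inv_cancel_right],
      show Nat.card {v : V // c • v = v} = 1 from Nat.card_eq_one_iff_exists.2 ⟨⟨0, smul_zero _⟩, fun x =>
        Subtype.ext ((smul_eq_zero.1 (by rw [sub_smul, one_smul, x.2, sub_self] :
          (c - 1) • x.1 = 0)).resolve_left (sub_ne_zero.2 c1))⟩, Nat.cast_one]
  obtain ⟨p, -, n, hp, hn⟩ := FiniteField.card' F
  obtain ⟨ζ, hζ⟩ := exists_eig_cop q.succ_ne_zero (by rw [← Units.val_pow_eq_pow_val, RN, Units.val_one])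
    (by rw [← Units.val_pow_eq_pow_val, inv_pow, RN, inv_one, Units.val_one]) ht hp
  have fl : ∀ (P : (End ℂ W)ˣ) (X Y : End ℂ W), P.1 * X = Y * P.1 → P⁻¹.1 * Y = X * P⁻¹.1 :=
    fun P X Y e => by rw [Units.inv_mul_eq_iff_eq_mul, ← mul_assoc, e, Units.mul_inv_cancel_right]
  obtain ⟨ρ, hρ⟩ := exists_lift (U := UG B) h (D.exists_int hB) (D.scalar hB) (R.1.maxGenEigenspace ζ)
    (fun g P hP => by
      replace hP : ∀ v, P.1 * h v = h (g.1 v) * P.1 := hP
      obtain ⟨s, hs⟩ := D.scalar hB (R⁻¹.1 * (P.1 * (R.1 * P⁻¹.1))) fun v => by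
        obtain ⟨w, rfl⟩ := g.1.surjective v
        rw [mul_assoc, mul_assoc, mul_assoc, fl P _ _ (hP w), ← mul_assoc R.1, hR, mul_assoc (h _),
          ← mul_assoc P.1, hP, map_smul, mul_assoc (h _), ← mul_assoc R⁻¹.1, fl R _ _ (hR _), mul_assoc]
      rw [Units.inv_mul_eq_iff_eq_mul, mul_smul_comm, mul_one] at hs
      have e := congrArg (trace ℂ W) hs
      rw [trace_mul_comm, Units.inv_mul_cancel_right, map_smul _ s, smul_eq_mul] at e
      obtain rfl : s = 1 := mul_right_cancel₀ (left_ne_zero_of_mul_eq_one ht) (e.symm.trans (one_mul _).symm)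
      rw [one_smul, ← mul_assoc, Units.mul_inv_eq_iff_eq_mul] at hs
      exact End.mapsTo_maxGenEigenspace_of_comm (show Commute R.1 P.1 from hs.symm) ζ) (by
      have : FiniteDimensional F V := Module.Finite.of_finite
      have e := D.dim
      rw [Module.natCard_eq_pow_finrank (K := F), Nat.card_eq_fintype_card, hn, ← pow_mul] at e
      exact (((hp.coprime_iff_not_dvd.2 hζ).symm.pow_right _).coprime_dvd_right
        (e ▸ dvd_pow_self _ two_ne_zero)))
  exact ⟨ρ, D, hρ⟩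

end WP

theorem exists_wq (hσ : IsBar q σ) (hB : IsHerm σ B) :
    ∃ (κ : AddChar F ℂ) (m : ℕ) (h : V → End ℂ (Fin m → ℂ)) (ρ : UG B →* End ℂ (Fin m → ℂ)),
      WQ B κ h ρ := by
  obtain ⟨κ, m, h, D⟩ := exists_wp hσ hB
  obtain ⟨ρ, Q⟩ := D.exists_rho hB hσ
  exact ⟨κ, m, h, ρ, Q⟩

end Cfsg.Lib.UW
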