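import Cfsg.Agent.Lib.US7.WD

/-! # Weil data in any characteristic: definitions

`h` is a Heisenberg basis of `End W` for a cocycle `γ` depending only on the hermitian form,
`κ` is the commutator character (`κ = ε (2 ·)` in the notation of `US7.WD`). -/

set_option autoImplicit false

namespace Cfsg.Lib.UW

open Module Cfsg.Lib.Unitary

variable {F V : Type*} [Field F] [AddCommGroup V] [Module F V] {σ : F →+* F}

/-- a Heisenberg basis -/
structure WP (B : V →ₛₗ[σ] V →ₗ[F] F) (κ : AddChar F ℂ) {W : Type*} [AddCommGroup W] [Module ℂ W]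
    (h : V → End ℂ W) : Prop where
  ne : κ ≠ 1
  fix : ∀ x, σ x = x → κ x = 1
  zero : h 0 = 1
  mul : ∃ (γ : F → F → F → ℂ) (N : ℕ), N ≠ 0 ∧ (∀ x y z, γ x y z ^ N = 1) ∧ γ 0 0 0 = 1 ∧
    ∀ u v, h u * h v = γ (B u u) (B v v) (B u v) • h (u + v)
  neg : ∀ v, h v * h (-v) = 1
  conj : ∀ u v, h u * h v * h (-u) = κ (B u v) • h v
  tr : ∀ v, v ≠ 0 → LinearMap.trace ℂ W (h v) = 0
  dim : finrank ℂ W ^ 2 = Nat.card V

/-- Weil data: a Heisenberg basis and a representation of `GU` permuting it -/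
structure WQ (B : V →ₛₗ[σ] V →ₗ[F] F) (κ : AddChar F ℂ) {W : Type*} [AddCommGroup W] [Module ℂ W]
    (h : V → End ℂ W) (ρ : UG B →* End ℂ W) : Prop extends WP B κ h where
  cj : ∀ (g : UG B) v, ρ g * h v = h (g.1 v) * ρ g

end Cfsg.Lib.UW
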