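import Cfsg.Agent.Lib.UW.Def

/-! # Weil data in any characteristic: trace identities (port of `US7/WD`) -/

set_option autoImplicit false
set_option linter.unusedSectionVars false

namespace Cfsg.Lib.UW

open Module Cfsg.Lib.Unitary LinearMap Cfsg.Lib.US7

variable {F V : Type*} [Field F] [Fintype F] [AddCommGroup V] [Module F V] [Fintype V] {σ : F →+* F}
  {B : V →ₛₗ[σ] V →ₗ[F] F} {κ : AddChar F ℂ} {W : Type*} [AddCommGroup W] [Module ℂ W]
  [FiniteDimensional ℂ W] {h : V → End ℂ W} {ρ : UG B →* End ℂ W}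

namespace WP

variable (D : WP B κ h) (hB : IsHerm σ B)
include D hB

theorem eps_bar (x : F) : κ (σ x) = κ (-x) := by
  rw [show σ x = σ x + x + -x by ring, AddChar.map_add_eq_mul, D.fix _ (by rw [map_add, hB.invol, add_comm]),
    one_mul]

theorem dim_ne : (finrank ℂ W : ℂ) ≠ 0 := by
  intro e
  have := D.dim
  rw [Nat.cast_eq_zero.1 e] at this
  exact Nat.card_pos.ne this

theorem orth [DecidableEq V] (u v : V) :
    trace ℂ W (h u * h (-v)) = if u = v then (finrank ℂ W : ℂ) else 0 := by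
  split_ifs with e
  · rw [e, D.neg, trace_one]
  · obtain ⟨γ, N, -, -, -, m⟩ := D.mul
    rw [m, map_smul, D.tr _ (by rwa [← sub_eq_add_neg, sub_ne_zero]), smul_zero]

theorem basis : ∃ b : Basis V ℂ (End ℂ W), ∀ v, b v = h v := by
  classical
  have li : LinearIndependent ℂ h := Fintype.linearIndependent_iff.2 fun c e v => by
    have := congrArg (fun X => trace ℂ W (X * h (-v))) e
    simp only [Finset.sum_mul, smul_mul_assoc, map_sum, map_smul, D.orth hB, smul_eq_mul, mul_ite, mul_zero,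
      Finset.sum_ite_eq', Finset.mem_univ, if_true, zero_mul, map_zero] at this
    exact (mul_eq_zero.1 this).resolve_right (D.dim_ne hB)
  exact ⟨basisOfLinearIndependentOfCardEqFinrank li (by
    rw [finrank_linearMap, ← sq, D.dim, Nat.card_eq_fintype_card]), fun v => by simp⟩

/-- `trace (h u * h (-v)) = dim • δ_uv`, so the `h v` are independent, hence a basis of `End W` -/
theorem expand (X : End ℂ W) :
    X = (finrank ℂ W : ℂ)⁻¹ • ∑ v, trace ℂ W (X * h (-v)) • h v := by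
  classical
  obtain ⟨b, hb⟩ := D.basis hB
  rw [Finset.smul_sum]
  conv_lhs => rw [← b.sum_repr X]
  refine Finset.sum_congr rfl fun v _ => ?_
  conv_rhs => rw [← b.sum_repr X]
  simp only [hb, Finset.sum_mul, smul_mul_assoc, map_sum, map_smul, D.orth hB, smul_eq_mul, mul_ite, mul_zero,
    Finset.sum_ite_eq', Finset.mem_univ, if_true, smul_smul]
  rw [mul_comm _ (finrank ℂ W : ℂ), inv_mul_cancel_left₀ (D.dim_ne hB)]

theorem planch (X Y : End ℂ W) : (finrank ℂ W : ℂ) * trace ℂ W (X * Y) =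
    ∑ v, trace ℂ W (X * h (-v)) * trace ℂ W (Y * h v) := by
  conv_lhs => rw [D.expand hB X]
  simp only [smul_mul_assoc, Finset.sum_mul, map_smul, map_sum, smul_eq_mul]
  rw [mul_inv_cancel_left₀ (D.dim_ne hB)]
  exact Finset.sum_congr rfl fun v _ => by rw [trace_mul_comm ℂ (h v)]

theorem twirl (X Y : End ℂ W) : ∑ v, trace ℂ W (X * h v * Y * h (-v)) =
    (finrank ℂ W : ℂ) * (trace ℂ W X * trace ℂ W Y) := by
  classical
  have e : ∀ u, ∑ v, κ (B v u) = if u = 0 then (finrank ℂ W : ℂ) ^ 2 else 0 := fun u => by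
    split_ifs with hu
    · have := D.dim
      rw [Nat.card_eq_fintype_card] at this
      simp [hu, ← this]
    · let f : V →+ F := AddMonoidHom.mk' (fun v => B v u) fun a b => by simp
      refine AddChar.sum_eq_zero_of_ne_one (ψ := κ.compAddMonoidHom f) fun e => D.ne ?_
      obtain ⟨w, hw⟩ : ∃ w, B u w ≠ 0 := by
        by_contra! e
        exact hu (hB.nondeg u e)
      have hw' : B w u ≠ 0 := by rw [← hB.symm]; exact (map_ne_zero σ).2 hw
      ext x
      have := DFunLike.congr_fun e (σ (x / B w u) • w)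
      rwa [AddChar.compAddMonoidHom_apply, show f (σ (x / B w u) • w) = x by
        simp only [f, AddMonoidHom.mk'_apply, map_smulₛₗ, LinearMap.smul_apply, hB.invol, smul_eq_mul]
        field_simp] at this
  conv_lhs => rw [D.expand hB Y]
  simp only [mul_assoc X, mul_smul_comm, smul_mul_assoc, Finset.mul_sum, Finset.sum_mul, D.conj, map_smul,
    map_sum, smul_eq_mul]
  rw [Finset.sum_comm]
  simp only [← Finset.mul_sum, ← Finset.sum_mul, e, ite_mul, zero_mul, mul_ite, mul_zero, Finset.sum_ite_eq',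
    Finset.mem_univ, if_true, neg_zero, D.zero, mul_one]
  field_simp [D.dim_ne hB]

/-- `X ↦ P X P'` permutes the basis `h` like `f` permutes `V`; `trace_lr` -/
theorem fix_card' {P P' : End ℂ W} {f : V → V} (hP : ∀ v, P * h v * P' = h (f v)) :
    trace ℂ W P * trace ℂ W P' = Nat.card {v : V // f v = v} := by
  classical
  obtain ⟨b, hb⟩ := D.basis hB
  have e : ∀ v, (mulLeft ℂ P * mulRight ℂ P' : End ℂ (End ℂ W)) (b v) = b (f v) := fun v => by
    rw [End.mul_apply, mulRight_apply, mulLeft_apply, hb, hb, ← mul_assoc, hP]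
  rw [← trace_lr, trace_eq_matrix_trace ℂ b, Nat.card_eq_fintype_card, Fintype.card_subtype]
  simp only [Matrix.trace, Matrix.diag, toMatrix_apply, e, b.repr_self, Finsupp.single_apply, Finset.sum_boole]

/-- Moyal self-duality for an idempotent of rank one: both sides equal
`dim * trace (E h(u) E h(-u))` (`planch`, `conj`, `idem_one`) -/
theorem moyal {E : End ℂ W} (hE : E * E = E) (h1 : trace ℂ W E = 1) (u : V) :
    ∑ v, trace ℂ W (E * h v) * trace ℂ W (E * h (-v)) * κ (B u v) =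
      (finrank ℂ W : ℂ) * (trace ℂ W (E * h u) * trace ℂ W (E * h (-u))) := by
  have e := D.planch hB E (h (-u) * E * h u)
  rw [← mul_assoc, ← mul_assoc, idem_one hE h1, smul_mul_assoc, map_smul, smul_eq_mul,
    mul_comm (trace ℂ W (E * h (-u)))] at e
  rw [e]
  refine Finset.sum_congr rfl fun v _ => ?_
  rw [mul_assoc (h (-u)), mul_assoc (h (-u)), trace_mul_comm ℂ (h (-u)), mul_assoc E, mul_assoc E, D.conj,
    mul_smul_comm, map_smul, smul_eq_mul]
  ring

end WP

namespace WQ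

variable (D : WQ B κ h ρ) (hB : IsHerm σ B)
include D hB

theorem fix_card (g : UG B) :
    trace ℂ W (ρ g) * trace ℂ W (ρ g⁻¹) = Nat.card {v : V // g.1 v = v} :=
  D.toWP.fix_card' hB fun v => by rw [D.cj, mul_assoc, ← map_mul, mul_inv_cancel, map_one, mul_one]

theorem norm_sq (g : UG B) : ‖trace ℂ W (ρ g)‖ ^ 2 = Nat.card {v : V // g.1 v = v} := by
  have : Finite (V ≃ₗ[F] V) := DFunLike.finite _
  have e := D.fix_card hB g
  rw [show trace ℂ W (ρ g⁻¹) = _ from Cfsg.Lib.Char.character_apply_inv ρ g] at e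
  exact_mod_cast (Complex.mul_conj' _).symm.trans e

/-- conjugate `ρ g` by `h u` -/
theorem tr_shift (g : UG B) (u : V) : trace ℂ W (ρ g) = trace ℂ W (ρ g * (h ((g⁻¹).1 u) * h (-u))) := by
  have e := D.cj g ((g⁻¹).1 u)
  rw [show g.1 ((g⁻¹).1 u) = u from g.1.apply_symm_apply u] at e
  have e2 := D.neg (-u)
  rw [neg_neg] at e2
  rw [← mul_assoc, e, trace_mul_comm, ← mul_assoc, e2, one_mul]

/-- `u ↦ g⁻¹ u - u` is bijective -/
theorem norm_tr {g : UG B} (hg : ∀ v, g.1 v = v → v = 0) (v : V) : ‖trace ℂ W (ρ g * h v)‖ = 1 := by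
  have inj : Function.Injective fun u : V => (g⁻¹).1 u - u := fun a b e => by
    have e1 : (g⁻¹).1 (a - b) = a - b := by rw [map_sub]; exact sub_eq_sub_iff_sub_eq_sub.1 e
    refine sub_eq_zero.1 (hg _ ?_)
    conv_lhs => rw [← e1]
    exact g.1.apply_symm_apply _
  obtain ⟨u, rfl⟩ := Finite.surjective_of_injective inj v
  have e := D.norm_sq hB g
  obtain ⟨γ, N, N0, hN, -, m⟩ := D.mul
  rw [show Nat.card {v : V // g.1 v = v} = 1 from
    Nat.card_eq_one_iff_exists.2 ⟨⟨0, map_zero _⟩, fun x => Subtype.ext (hg _ x.2)⟩, D.tr_shift hB g u,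
    m, mul_smul_comm, map_smul, smul_eq_mul, norm_mul, Complex.norm_eq_one_of_pow_eq_one (hN _ _ _) N0, one_mul,
    Nat.cast_one, ← sub_eq_add_neg] at e
  exact (pow_eq_one_iff_of_nonneg (norm_nonneg _) two_ne_zero).1 e

/-- for a scalar `c ≠ 1` and isotropic `v = (c⁻¹ - 1) u`, `u` is isotropic and the phase is trivial -/
theorem tr_iso {g : UG B} {c : F} (hg : ∀ v, g.1 v = c • v) (hc : c ≠ 1) {v : V} (hv : B v v = 0) :
    trace ℂ W (ρ g * h v) = trace ℂ W (ρ g) := by
  rcases eq_or_ne v 0 with rfl | h0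
  · rw [D.zero, mul_one]
  have c0 : c ≠ 0 := by
    rintro rfl
    exact h0 (g.1.map_eq_zero_iff.1 (by rw [hg, zero_smul]))
  have c1 : c⁻¹ - 1 ≠ 0 := sub_ne_zero.2 (by simpa using hc)
  have e : ∀ u, (g⁻¹).1 u = c⁻¹ • u := fun u => g.1.injective (by
    rw [show g.1 ((g⁻¹).1 u) = u from g.1.apply_symm_apply u, hg, smul_inv_smul₀ c0])
  obtain ⟨γ, N, -, -, g0, m⟩ := D.mul
  rw [D.tr_shift hB g ((c⁻¹ - 1)⁻¹ • v), e, m, show ∀ u : V, c⁻¹ • u + -u = (c⁻¹ - 1) • u from fun u => by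
    rw [sub_smul, one_smul, sub_eq_add_neg], smul_inv_smul₀ c1]
  simp [hv, g0]

/-- the elements `ζ • h w * ρ k`, `ζ ^ N = 1`, form a finite submonoid -/
theorem integral (g k : UG B) (u u' v v' : V) :
    IsIntegral ℤ (trace ℂ W (ρ g * (h u * h u') * ρ k * (h v * h v'))) := by
  have : Finite (V ≃ₗ[F] V) := DFunLike.finite _
  obtain ⟨γ, N, N0, hN, -, m⟩ := D.mul
  have : Finite {z : ℂ // z ^ N = 1} := (Set.Finite.subset (Polynomial.nthRootsFinset N (1 : ℂ)).finite_toSet
    fun z hz => (Polynomial.mem_nthRootsFinset (Nat.pos_of_ne_zero N0) _).2 hz :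
      Set.Finite {z : ℂ | z ^ N = 1}).to_subtype
  let M : Submonoid (End ℂ W) :=
    { carrier := Set.range fun p : {z : ℂ // z ^ N = 1} × V × UG B => p.1.1 • (h p.2.1 * ρ p.2.2)
      one_mem' := ⟨(⟨1, one_pow _⟩, 0, 1), by simp [D.zero]⟩
      mul_mem' := by
        rintro _ _ ⟨⟨x, a, s⟩, rfl⟩ ⟨⟨y, b, t⟩, rfl⟩
        refine ⟨(⟨x.1 * y.1 * γ (B a a) (B (s.1 b) (s.1 b)) (B a (s.1 b)), by
          rw [mul_pow, mul_pow, x.2, y.2, hN, one_mul, one_mul]⟩, a + s.1 b, s * t), ?_⟩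
        simp only [smul_mul_assoc, mul_smul_comm, smul_smul, map_mul]
        rw [mul_assoc (h a), ← mul_assoc (ρ s) (h b), D.cj, mul_assoc (h _), ← mul_assoc (h a), m,
          smul_mul_assoc, smul_smul, mul_comm y.1] }
  have h1 : ∀ a, h a ∈ M := fun a => ⟨(⟨1, one_pow _⟩, a, 1), by simp⟩
  have h2 : ∀ s, ρ s ∈ M := fun s => ⟨(⟨1, one_pow _⟩, 0, s), by simp [D.zero]⟩
  refine PermChar.isIntegral_trace (IsIntegral.of_mem_of_fg (Algebra.adjoin ℤ (M : Set (End ℂ W))) ?_ _
    (Algebra.subset_adjoin (mul_mem (mul_mem (mul_mem (h2 _) (mul_mem (h1 _) (h1 _))) (h2 _))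
      (mul_mem (h1 _) (h1 _)))))
  rw [Algebra.adjoin_eq_span, Submonoid.closure_eq]
  exact Submodule.fg_span (Set.finite_range _)

end WQ

end Cfsg.Lib.UW
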